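import Mathlib
import Cfsg.Prelude.Def_OddOrderLocal
import Cfsg.Agent.Lib.Helper20.BG.S1408Core
import Cfsg.Agent.Lib.Helper35.BG.Basic
import Cfsg.Agent.Lib.Helper47.BG.SigmaNe

/-!
Bender–Glauberman Proposition 12.4 (statement S1416), part A: vocabulary, the hypotheses
taken as `Prop`s, and the case of `p`-rank at least three.
-/

set_option autoImplicit false

namespace Cfsg.Agent.Lib.Helper29.BG

open Cfsg Cfsg.Agent.Lib.Helper35.BG Cfsg.Agent.Lib.Helper46

/-- Statement S1403 (the Uniqueness Theorem) for `G`. -/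
def H1403 (G : Type*) [Group G] : Prop :=
  ∀ K : Subgroup G, K ≠ ⊤ → ¬ Cfsg.RankLE 1 K →
    (¬ Cfsg.RankLE 2 K ∨ ¬ Cfsg.RankLE 2 (Subgroup.centralizer (K : Set G))) →
    Cfsg.InUniqueMaximal K

/-- Statement S1404 (BG 10.1) for `G`. -/
def H1404 (G : Type*) [Group G] : Prop :=
  ∀ (M : Subgroup G), IsCoatom M → ∀ (p : ℕ) [Fact p.Prime], p ∈ Cfsg.sigma M →
    ∀ (X : Subgroup G), IsPGroup p X → X ≠ ⊥ → X ≤ M →
      (∀ g : G, X.map (MulAut.conj g).toMonoidHom ≤ M →
          ∃ m ∈ M, ∃ c ∈ Subgroup.centralizer (X : Set G), g = m * c) ∧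
        Subgroup.normalizer (X : Set G) =
          (M ⊓ Subgroup.normalizer (X : Set G)) ⊔ Subgroup.centralizer (X : Set G)

/-- The conclusions of BG Section 11 used for S1416, for every exceptional configuration of `G`:
`M` maximal, `q ∉ σ(M)`, `B ≤ M` elementary abelian of order `q²`, `B₀ ≤ B` of order `q` with
`N_G(B₀) ≤ M`.  Then (11.4) a maximal subgroup `H ⊇ B` with `M_σ ∩ H_σ ≠ 1` is `M`;
(11.5) the Sylow `q`-subgroups of `M` are abelian; (11.6b) `C_{M_σ}(B) = 1`;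
(11.7) `M_σ B ⊴ M`. -/
def HSec11 (G : Type*) [Group G] : Prop :=
  ∀ (M : Subgroup G), IsCoatom M → ∀ (q : ℕ) [Fact q.Prime] (B B₀ : Subgroup G),
    q ∉ Cfsg.sigma M → B ≤ M → Cfsg.IsElementaryAbelian q B → Nat.card B = q ^ 2 →
    B₀ ≤ B → Nat.card B₀ = q → Subgroup.normalizer (B₀ : Set G) ≤ M →
      (∀ H : Subgroup G, IsCoatom H → B ≤ H → Cfsg.sigmaCore M ⊓ Cfsg.sigmaCore H ≠ ⊥ → H = M) ∧
      (∀ P : Sylow q M, IsMulCommutative (P : Subgroup M)) ∧
      Cfsg.sigmaCore M ⊓ Subgroup.centralizer (B : Set G) = ⊥ ∧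
      M ≤ Subgroup.normalizer ((Cfsg.sigmaCore M ⊔ B : Subgroup G) : Set G)

/-- Tool T4: a nontrivial normal `q`-subgroup `Y` of a maximal subgroup `M` with `q ∉ σ(M)`
is cyclic, and some subgroup of order `q` of `Y` is normal in `M`. -/
def HT4 (G : Type*) [Group G] : Prop :=
  ∀ (M : Subgroup G), IsCoatom M → ∀ (q : ℕ) [Fact q.Prime], q ∉ Cfsg.sigma M →
    ∀ Y : Subgroup G, Y ≤ M → Y ≠ ⊥ → IsPGroup q Y → M ≤ Subgroup.normalizer (Y : Set G) →
      IsCyclic Y ∧ ∃ W₀ : Subgroup G, W₀ ≤ Y ∧ Nat.card W₀ = q ∧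
        M ≤ Subgroup.normalizer (W₀ : Set G)

/-- Tools T2 + T3 (the signalizer lemma): a maximal elementary abelian `p`-subgroup `A` of order
`p²` centralizes every maximal `A`-invariant `q`-subgroup `Q` (`q ≠ p` dividing `#C_G(A)`) that has
a subgroup `W₀` of order `q` with `C_Q(W₀)` abelian of rank at most two. -/
def HT23 (G : Type*) [Group G] : Prop :=
  ∀ (p q : ℕ) [Fact p.Prime] [Fact q.Prime], p ≠ q → ∀ A : Subgroup G,
    Cfsg.IsElementaryAbelian p A → Nat.card A = p ^ 2 →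
    (∀ B : Subgroup G, Cfsg.IsElementaryAbelian p B → A ≤ B → B = A) →
    q ∣ Nat.card (Subgroup.centralizer (A : Set G)) →
    ∀ Q ∈ Cfsg.maxInvSubgroups ⊤ A {q}, ∀ W₀ : Subgroup G, W₀ ≤ Q → Nat.card W₀ = q →
      (∀ x ∈ Q ⊓ Subgroup.centralizer (W₀ : Set G), ∀ y ∈ Q ⊓ Subgroup.centralizer (W₀ : Set G),
        x * y = y * x) →
      Cfsg.PRankLE q 2 ↥(Q ⊓ Subgroup.centralizer (W₀ : Set G)) →
      A ≤ Subgroup.centralizer (Q : Set G)

/-- `M` is the only maximal subgroup containing `N_G(X)`. -/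
def Good {G : Type*} [Group G] (M X : Subgroup G) : Prop :=
  Subgroup.normalizer (X : Set G) ≤ M ∧
    ∀ L : Subgroup G, IsCoatom L → Subgroup.normalizer (X : Set G) ≤ L → L = M

variable {G : Type*} [Group G] [Finite G]

theorem unique_coatom_of_le {M K : Subgroup G} (hM : IsCoatom M) (hKM : K ≤ M)
    (hK : Cfsg.InUniqueMaximal K) {L : Subgroup G} (hL : IsCoatom L) (hKL : K ≤ L) : L = M := by
  obtain ⟨M', -, huniq⟩ := hK
  rw [huniq L ⟨hL, hKL⟩, huniq M ⟨hM, hKM⟩]

/-- A subgroup of prime order is neither trivial nor the whole group. -/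
theorem ne_bot_of_card_prime {p : ℕ} [hp : Fact p.Prime] {X : Subgroup G} (hX : Nat.card X = p) :
    X ≠ ⊥ := by
  intro h
  rw [h, Subgroup.card_bot] at hX
  exact hp.out.one_lt.ne hX

theorem ne_top_of_le_coatom {M X : Subgroup G} (hM : IsCoatom M) (hXM : X ≤ M) : X ≠ ⊤ := by
  intro h
  exact hM.1 (top_le_iff.mp (h ▸ hXM))

/-- If `K ≤ M` lies in a unique maximal subgroup and `K ≤ N(X)`, then `X` is good. -/
theorem good_of_unique (hG : IsMinSimpleOddOrder G) {M K X : Subgroup G} (hM : IsCoatom M)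
    (hKM : K ≤ M) (hK : Cfsg.InUniqueMaximal K) (hX1 : X ≠ ⊥) (hXM : X ≤ M)
    (hKX : K ≤ Subgroup.normalizer (X : Set G)) : Good M X := by
  have hne : Subgroup.normalizer (X : Set G) ≠ ⊤ :=
    normalizer_ne_top hG hX1 (ne_top_of_le_coatom hM hXM)
  have key : ∀ L : Subgroup G, IsCoatom L → Subgroup.normalizer (X : Set G) ≤ L → L = M :=
    fun L hL hNL => unique_coatom_of_le hM hKM hK hL (hKX.trans hNL)
  obtain ⟨L, hL, hNL⟩ := exists_coatom_ge hne
  exact ⟨(key L hL hNL) ▸ hNL, key⟩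

/-- A good point gives `C_G(A) ≤ M`. -/
theorem centralizer_le_of_good {M A X : Subgroup G} (hXA : X ≤ A) (hX : Good M X) :
    Subgroup.centralizer (A : Set G) ≤ M :=
  ((centralizer_anti hXA).trans (centralizer_le_normalizer' X)).trans hX.1

/-- An elementary abelian group of order `p²` has a subgroup of order `p`. -/
theorem exists_le_card_prime {p : ℕ} [hp : Fact p.Prime] {A : Subgroup G}
    (hA : Cfsg.IsElementaryAbelian p A) (hA2 : Nat.card A = p ^ 2) :
    ∃ X : Subgroup G, X ≤ A ∧ Nat.card X = p := by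
  have hdvd : p ∣ Nat.card A := by rw [hA2]; exact dvd_pow_self p two_ne_zero
  obtain ⟨a, ha⟩ := exists_prime_orderOf_dvd_card' (G := A) p hdvd
  refine ⟨Subgroup.zpowers (a : G), ?_, ?_⟩
  · rw [Subgroup.zpowers_le]; exact a.2
  · rw [Nat.card_zpowers, Subgroup.orderOf_coe, ha]

/-- The case of `p`-rank at least three: some subgroup of order `p` of `A` is good. -/
theorem exists_good_of_rank (hG : IsMinSimpleOddOrder G) (h1403 : H1403 G)
    (M : Subgroup G) (hM : IsCoatom M) (p : ℕ) [hp : Fact p.Prime] (A : Subgroup G)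
    (hAM : A ≤ M) (hA : Cfsg.IsElementaryAbelian p A) (hA2 : Nat.card A = p ^ 2)
    (hr : ¬ Cfsg.PRankLE p 2 M) :
    ∃ X : Subgroup G, X ≤ A ∧ Nat.card X = p ∧ Good M X := by
  have hpp : p.Prime := hp.out
  have hAp : IsPGroup p A := Cfsg.Agent.Lib.Helper20.BG.isPGroup_of_ea hA
  obtain ⟨P, hPsyl, hAP⟩ := exists_isSylowIn_ge hAp hAM
  have hPM : P ≤ M := hPsyl.1
  have hPp : IsPGroup p P := sylIn_isPGroup hPsyl
  have hP2 : ¬ Cfsg.PRankLE p 2 P := fun h => hr (pRankLE_of_isSylowIn hPsyl h)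
  have hPU : Cfsg.InUniqueMaximal P := by
    apply h1403 P (ne_top_of_le_coatom hM hPM)
    · exact not_rankLE_of_not_pRankLE (fun h => hP2 (pRankLE_mono hpp.pos (by norm_num) h))
    · exact Or.inl (not_rankLE_of_not_pRankLE hP2)
  -- a central element of order `p` of `P`
  have hPnt : Nontrivial P := by
    obtain ⟨X, hXA, hX⟩ := exists_le_card_prime hA hA2
    have hX1 := ne_bot_of_card_prime hX
    rw [Subgroup.nontrivial_iff_ne_bot]
    intro h
    exact hX1 (le_bot_iff.mp (h ▸ (hXA.trans hAP)))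
  obtain ⟨z, hzc, hzo⟩ := Cfsg.Agent.Lib.Helper23.exists_central_orderOf_eq p hPp
  have hzP : (z : G) ∈ P := z.2
  have hzcomm : ∀ x ∈ P, x * (z : G) = (z : G) * x := by
    intro x hx
    have := Subgroup.mem_center_iff.mp hzc ⟨x, hx⟩
    exact congrArg Subtype.val this
  have hzcard : Nat.card (Subgroup.zpowers (z : G)) = p := by
    rw [Nat.card_zpowers, Subgroup.orderOf_coe, hzo]
  have hZP : Subgroup.zpowers (z : G) ≤ P := by
    rw [Subgroup.zpowers_le]; exact hzP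
  by_cases hzA : (z : G) ∈ A
  · refine ⟨Subgroup.zpowers (z : G), ?_, hzcard, ?_⟩
    · rw [Subgroup.zpowers_le]; exact hzA
    · apply good_of_unique hG hM hPM hPU (ne_bot_of_card_prime hzcard) (hZP.trans hPM)
      intro x hx
      apply centralizer_le_normalizer' (Subgroup.zpowers (z : G))
      rw [Subgroup.mem_centralizer_iff]
      intro y hy
      rw [SetLike.mem_coe, Subgroup.mem_zpowers_iff] at hy
      obtain ⟨k, rfl⟩ := hy
      exact ((Commute.zpow_right (hzcomm x hx) k).eq).symm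
  · -- `A ⊔ ⟨z⟩` is elementary abelian of order larger than `p²`
    have hZe : Cfsg.IsElementaryAbelian p (Subgroup.zpowers (z : G)) :=
      Cfsg.Agent.Lib.Helper20.BG.ea_of_card_prime hzcard
    have hcomm : ∀ a ∈ A, ∀ b ∈ Subgroup.zpowers (z : G), a * b = b * a := by
      intro a ha b hb
      rw [Subgroup.mem_zpowers_iff] at hb
      obtain ⟨k, rfl⟩ := hb
      exact (Commute.zpow_right (hzcomm a (hAP ha)) k).eq
    have hKe : Cfsg.IsElementaryAbelian p (A ⊔ Subgroup.zpowers (z : G)) :=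
      Cfsg.Agent.Lib.Helper23.isEA_sup hA hZe hcomm
    have hlt : A < A ⊔ Subgroup.zpowers (z : G) := by
      refine lt_of_le_of_ne le_sup_left ?_
      intro h
      apply hzA
      rw [h]
      exact (le_sup_right : Subgroup.zpowers (z : G) ≤ _) (Subgroup.mem_zpowers _)
    have hcard : p ^ 2 < Nat.card ↥(A ⊔ Subgroup.zpowers (z : G)) := by
      rw [← hA2]; exact card_lt_of_lt hlt
    have hKM : A ⊔ Subgroup.zpowers (z : G) ≤ M := sup_le hAM (hZP.trans hPM)
    have hK2 : ¬ Cfsg.PRankLE p 2 ↥(A ⊔ Subgroup.zpowers (z : G)) :=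
      Cfsg.Agent.Lib.Helper23.not_pRankLE_of_le p hKe le_rfl hcard
    have hKU : Cfsg.InUniqueMaximal (A ⊔ Subgroup.zpowers (z : G)) := by
      apply h1403 _ (ne_top_of_le_coatom hM hKM)
      · exact not_rankLE_of_not_pRankLE (fun h => hK2 (pRankLE_mono hpp.pos (by norm_num) h))
      · exact Or.inl (not_rankLE_of_not_pRankLE hK2)
    obtain ⟨X, hXA, hX⟩ := exists_le_card_prime hA hA2
    refine ⟨X, hXA, hX, ?_⟩
    apply good_of_unique hG hM hKM hKU (ne_bot_of_card_prime hX) (hXA.trans hAM)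
    intro x hx
    apply centralizer_le_normalizer' X
    rw [Subgroup.mem_centralizer_iff]
    intro y hy
    have hyK : y ∈ A ⊔ Subgroup.zpowers (z : G) := (le_sup_left : A ≤ _) (hXA hy)
    exact Cfsg.Agent.Lib.Helper20.BG.ea_comm hKe y hyK x hx

end Cfsg.Agent.Lib.Helper29.BG
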